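import Groth.Agent.Sga7.H591.LiftA
import Groth.Agent.Sga7.H591.LiftB

/-!
# LIFT from the lifting of sections
-/

set_option autoImplicit false
universe u
open CategoryTheory CategoryTheory.Limits AlgebraicGeometry Opposite TopologicalSpace

namespace Groth.Agent.Sga7.H591.Lift

open Groth.Agent.Grpsch.PicGrp Groth.Agent.Fga.JacSum Groth.Agent.Sga7.H591.Dcl
open Groth.Agent.Picfga Groth.Agent.Picfga.SecGraph Groth.Agent.Picfga.HilbPull Groth.Agent.Sga7.H591.SecSm
open Groth.Agent.Sga7.H732.Hedge IsLocalRing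

theorem dcl_congr {Y : Scheme.{u}} {D E : Y.IdealSheafData} (h : D = E) (hD : BlowUp.IsEffCartierIdeal D)
    (hE : BlowUp.IsEffCartierIdeal E) : dcl D hD = dcl E hE := by
  subst h; rfl

/-- A section over a local scheme whose closed point lies in an open has values in this open. -/
theorem range_subset_of_closedPoint {B : Type u} [CommRing B] [IsLocalRing B] {X : Scheme.{u}}
    (y : Spec (CommRingCat.of B) ⟶ X) (U : X.Opens) (h : y (closedPoint B) ∈ U) : Set.range y ⊆ U := by
  rintro _ ⟨z, rfl⟩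
  exact ((specializes_closedPoint z).map y.continuous).mem_open U.2 h

/-- `LIFT` from the lifting of sections. -/
theorem lift_of (hS : LiftB.SecLift.{u}) : LIFT.{u} := by
  intro R K R'' K'' _ _ _ _ _ _ _ _ _ _ _ _ _ _ _ _ _ _ _ _ X p _ hp C f c h _ _ hf cm h1 h2 r hr L hL
  have hlfp := hp.2.1
  have hflat := hp.1
  obtain ⟨n, y, hyU, hyinj, hH⟩ := LiftA.exists_enough R K R'' X p hp C f c h hf r hr
  have hsm : SmoothOfRelativeDimension 1 (p.smoothLocus.ι ≫ p) := GeoFib.smoothRel p hp
  let T := pt R R''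
  let T' := pt K K''
  let b : Spec (CommRingCat.of K'') ⟶ Spec (CommRingCat.of R'') :=
    Spec.map (CommRingCat.ofHom (algebraMap R'' K''))
  have hT : b ≫ T.hom = T'.hom ≫ Spec.map (CommRingCat.ofHom (algebraMap R K)) := by
    change Spec.map _ ≫ Spec.map _ = Spec.map _ ≫ Spec.map _
    rw [← Spec.map_comp, ← Spec.map_comp, ← CommRingCat.ofHom_comp, ← CommRingCat.ofHom_comp,
      ← IsScalarTower.algebraMap_eq, ← IsScalarTower.algebraMap_eq]
  have hc : ∀ i, BlowUp.IsEffCartierIdeal (HilbD.secGraph p T (y i).1 (y i).2) := fun i =>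
    isEff_sec p p.smoothLocus (y i) (hyU i)
  have hproper : IsProper (PicF.XTproj p T) :=
    MorphismProperty.of_isPullback (IsPullback.of_hasPullback p T.hom) inferInstance
  have hfl : Flat (PicF.XTproj p T) :=
    MorphismProperty.of_isPullback (P := @Flat) (IsPullback.of_hasPullback p T.hom) inferInstance
  have hj : IsPullback (PicF.XTmap p r) (PicF.XTproj p (pt R (ResidueField R''))) (PicF.XTproj p T)
      (Spec.map (CommRingCat.ofHom (residue R''))) := by
    have := isPullback_XTmap p r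
    rwa [hr] at this
  have hgr : ∀ i, (sec p T (y i).1 (y i).2).ker.comap (PicF.XTmap p r) =
      HilbD.secGraph p (pt R (ResidueField R'')) ((y i).comp r).1 ((y i).comp r).2 := by
    intro i
    have := pull_secGraph p (y i).1 (y i).2 r
    rw [pull_eq_comap] at this
    exact this
  have hH' : ∀ (hE : ∀ i, BlowUp.IsEffCartierIdeal ((sec p T (y i).1 (y i).2).ker.comap (PicF.XTmap p r)))
      (N : (PicF.XT p (pt R (ResidueField R''))).Modules) (hN : PicF.IsInvertible N),
      mk N hN = ∏ i, (dcl ((sec p T (y i).1 (y i).2).ker.comap (PicF.XTmap p r)) (hE i))⁻¹ →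
      Subsingleton (Coh.HH (PicF.XT p (pt R (ResidueField R''))) N 1) := by
    intro hE N hN hcN
    have hE' : ∀ i, BlowUp.IsEffCartierIdeal
        (HilbD.secGraph p (pt R (ResidueField R'')) ((y i).comp r).1 ((y i).comp r).2) := fun i => by
      rw [← hgr i]; exact hE i
    have h3 : ∏ i, (dcl ((sec p T (y i).1 (y i).2).ker.comap (PicF.XTmap p r)) (hE i))⁻¹ =
        ∏ i, (dcl _ (hE' i))⁻¹ := Finset.prod_congr rfl fun i _ => by rw [dcl_congr (hgr i) (hE i) (hE' i)]
    exact hH hE' N hN (hcN.trans h3)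
  obtain ⟨y'', hc', hsec, hred, hcl⟩ := hS R'' (PicF.XT p T) (PicF.XT p (pt R (ResidueField R'')))
    (PicF.XTproj p T) (PicF.XTmap p r) (PicF.XTproj p (pt R (ResidueField R''))) hj n
    (fun i => sec p T (y i).1 (y i).2) (fun i => sec_proj p _ _) hc hyinj L hL
    hH'
  have hy' : ∀ i, (y'' i ≫ pullback.fst p T.hom) ≫ p = T.hom := fun i => by
    have h3 : pullback.fst p T.hom ≫ p = PicF.XTproj p T ≫ T.hom := pullback.condition
    rw [Category.assoc, h3, ← Category.assoc, hsec]
    exact Category.id_comp _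
  let y' : Fin n → Pt p T := fun i => ⟨y'' i ≫ pullback.fst p T.hom, hy' i⟩
  have hsy : ∀ i, sec p T (y' i).1 (y' i).2 = y'' i := by
    intro i
    apply pullback.hom_ext
    · exact sec_fst p _ _
    · rw [pullback.lift_snd]
      exact (hsec i).symm
  have hcomp : ∀ i, (y i).comp r = (y' i).comp r := by
    intro i
    apply Subtype.ext
    change r.left ≫ (y i).1 = r.left ≫ y'' i ≫ pullback.fst p T.hom
    rw [hr, ← Category.assoc (Spec.map _) (y'' i), hred, Category.assoc, sec_fst]
  have hyU' : ∀ i, Set.range (y' i).1 ⊆ p.smoothLocus := by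
    intro i
    apply range_subset_of_closedPoint
    have h3 : (y' i).1 (closedPoint R'') = (y i).1 (closedPoint R'') := by
      have h4 := congrArg Subtype.val (hcomp i)
      have h5 : r.left (closedPoint (ResidueField R'')) = closedPoint R'' := by
        rw [hr]; exact IsLocalRing.comap_closedPoint (residue R'')
      have h6 : (r.left ≫ (y i).1) (closedPoint (ResidueField R'')) =
        (r.left ≫ (y' i).1) (closedPoint (ResidueField R'')) := congr($h4 (closedPoint (ResidueField R'')))
      rw [Scheme.Hom.comp_apply, Scheme.Hom.comp_apply, h5] at h6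
      exact h6.symm
    rw [h3]
    exact hyU i ⟨_, rfl⟩
  have hz : ∀ x : Pt p T, ∃ z : Pt f T', z.1 ≫ c = b ≫ x.1 := by
    intro x
    have h3 : (b ≫ x.1) ≫ p = T'.hom ≫ Spec.map (CommRingCat.ofHom (algebraMap R K)) := by
      rw [Category.assoc, x.2, hT]
    exact ⟨⟨h.lift (b ≫ x.1) T'.hom h3, h.lift_snd _ _ _⟩, h.lift_fst _ _ _⟩
  choose z hz using hz
  refine ⟨n, y, y', fun i => z (y i), fun i => z (y' i), fun i => ⟨p.smoothLocus, ?_, hyU i, hyU' i⟩, hcomp,
    fun i => hz _, fun i => hz _, ?_⟩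
  · exact SmoothOfRelativeDimension.smooth 1 _
  have hk : ∀ i, (y'' i).ker = HilbD.secGraph p T (y' i).1 (y' i).2 := fun i => by
    rw [secGraph_eq_ker, hsy]
  have hc'' : ∀ i, BlowUp.IsEffCartierIdeal (HilbD.secGraph p T (y' i).1 (y' i).2) := fun i => by
    rw [← hk]; exact hc' i
  have hprod : ∏ i, dcl (HilbD.secGraph p T (y' i).1 (y' i).2) (hc'' i) = ∏ i, dcl (y'' i).ker (hc' i) :=
    Finset.prod_congr rfl fun i _ => dcl_congr (hk i).symm _ _
  have hprod' : ∏ i, dcl (HilbD.secGraph p T (y i).1 (y i).2) (hc i) =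
      ∏ i, dcl (sec p T (y i).1 (y i).2).ker (hc i) :=
    Finset.prod_congr rfl fun i _ => dcl_congr (secGraph_eq_ker p (y i).1 (y i).2) _ _
  refine LiftB.pull_cm_eq p f c _ h T T' b hT cm h1 h2 y y' hc hc'' L ?_ _ _ (fun i => hz _) (fun i => hz _)
  rw [hprod, hprod', hcl]

end Groth.Agent.Sga7.H591.Lift
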