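import Groth.Agent.S1604
import Groth.Agent.S0002
import Groth.Agent.Sga7.H591.Dcl
import Groth.Agent.Fga.EulerIso
import Groth.Agent.VarietyA.H0Equiv
import Groth.Agent.VarietyB.DegCartier

/-!
# The degree of a class in the Picard group of a proper scheme of dimension at most one
-/

set_option autoImplicit false
universe u
open CategoryTheory CategoryTheory.Limits AlgebraicGeometry Opposite TopologicalSpace

namespace Groth.Agent.Sga7.H591.DivDeg

open Groth.Agent.Grpsch.PicGrp Groth.Agent.Sga7.H591.Dcl Groth.Agent.Fdesc.LocGen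

variable (k : Type u) [Field k] (X : Scheme.{u}) [X.Over (Spec (CommRingCat.of k))]

theorem euler_congr {M N : X.Modules} (e : M ≅ N) : Curv2.euler k X M = Curv2.euler k X N := by
  unfold Curv2.euler
  exact finsum_congr fun i => by rw [(Fga.EulerIso.HHequiv k e i).finrank_eq]

theorem deg_congr {M N : X.Modules} (e : M ≅ N) (n : ℕ) : Curv2.deg k X M n = Curv2.deg k X N n := by
  unfold Curv2.deg
  rw [euler_congr k X e]

/-- The degree of a class. -/
noncomputable def dg (c : Pic X) : ℤ := Curv2.deg k X (exists_mk c).choose 1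

variable {X} in
theorem dg_mk {L : X.Modules} (hL : PicF.IsInvertible L) : dg k X (mk L hL) = Curv2.deg k X L 1 := by
  obtain ⟨hL', h⟩ := (exists_mk (mk L hL)).choose_spec
  obtain ⟨e⟩ := (mk_eq_iff hL hL').mp h
  exact (deg_congr k X e 1).symm

theorem dg_one : dg k X 1 = 0 := by
  rw [one_def, dg_mk]
  simp [Curv2.deg]

section Proper

variable [IsProper (X ↘ (Spec (CommRingCat.of k)))] (hdim : topologicalKrullDim X ≤ 1)

include hdim in
theorem dg_mul_inv_dcl (D : X.IdealSheafData) (hD : BlowUp.IsEffCartierIdeal D) (c : Pic X) :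
    dg k X (c * (dcl D hD)⁻¹) = dg k X c + Module.finrank k (Coh.HH X (ClSub.quotMod D) 0) := by
  obtain ⟨E, hE, rfl⟩ := exists_mk c
  obtain ⟨L, hL, hLc⟩ := exists_mk (dcl D hD)⁻¹
  have h1 : ClSub.IsInverseOf L (ClSub.idealMod D) := by
    have h2 : mk L hL * dcl D hD = 1 := by rw [← hLc, inv_mul_cancel]
    rw [dcl, mk_mul_mk, mk_eq_one_iff] at h2
    exact h2
  rw [hLc, mk_mul_mk, dg_mk, dg_mk]
  have h3 := (Groth.Agent.S1604.result k X hdim D hD L hL h1 1 E
    (Ega2.QCohLocal.isFinLocFreeOfRank_one_iff.2 hE)).2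
  rw [h3]
  push_cast
  ring

include hdim in
theorem dg_prod {ι : Type*} (s : Finset ι) (D : ι → X.IdealSheafData)
    (hD : ∀ i, BlowUp.IsEffCartierIdeal (D i)) :
    dg k X (∏ i ∈ s, (dcl (D i) (hD i))⁻¹) =
      ∑ i ∈ s, (Module.finrank k (Coh.HH X (ClSub.quotMod (D i)) 0) : ℤ) := by
  classical
  induction s using Finset.induction_on with
  | empty => simp [dg_one]
  | insert a s ha ih =>
    rw [Finset.prod_insert ha, Finset.sum_insert ha, mul_comm, dg_mul_inv_dcl k X hdim, ih, add_comm]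

theorem finrank_quotMod_pos (D : X.IdealSheafData) (h : (D.support : Set X).Nonempty) :
    0 < Module.finrank k (Coh.HH X (ClSub.quotMod D) 0) := by
  have hN : IsNoetherian X := VarietyB.DegFin.isNoetherian_of_isProper k X
  have h1 := Groth.Agent.S0002.result k X _ (VarietyB.DegCartier.isCoh_quotMod D) 0
  have h2 : Nontrivial (Coh.HH X (ClSub.quotMod D) 0) := by
    have e : Coh.HH X (ClSub.quotMod D) 0 ≃+ Γ(ClSub.quotMod D, ⊤) :=
      VarietyA.H0Equiv.hZeroEquiv (ClSub.quotMod D)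
    have h3 : Nontrivial Γ(ClSub.quotMod D, ⊤) := by
      obtain ⟨x, hx⟩ := h
      rw [← Scheme.IdealSheafData.range_subschemeι] at hx
      obtain ⟨z, hz⟩ := hx
      have : Nonempty D.subscheme := ⟨z⟩
      change Nontrivial Γ(D.subscheme, D.subschemeι ⁻¹ᵁ ⊤)
      have : Nonempty (D.subschemeι ⁻¹ᵁ ⊤ : D.subscheme.Opens) := ⟨⟨z, trivial⟩⟩
      infer_instance
    exact e.toEquiv.nontrivial
  exact Module.finrank_pos

include hdim in
theorem card_le_dg {ι : Type*} [Fintype ι] (D : ι → X.IdealSheafData)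
    (hD : ∀ i, BlowUp.IsEffCartierIdeal (D i)) (s : Finset ι)
    (hs : ∀ i ∈ s, ((D i).support : Set X).Nonempty) :
    (s.card : ℤ) ≤ dg k X (∏ i, (dcl (D i) (hD i))⁻¹) := by
  rw [dg_prod k X hdim]
  have h1 : ∑ i ∈ s, (1 : ℤ) ≤
      ∑ i ∈ s, (Module.finrank k (Coh.HH X (ClSub.quotMod (D i)) 0) : ℤ) :=
    Finset.sum_le_sum fun i hi => by
      have := finrank_quotMod_pos k X (D i) (hs i hi)
      exact_mod_cast this
  have h2 : ∑ i ∈ s, (Module.finrank k (Coh.HH X (ClSub.quotMod (D i)) 0) : ℤ) ≤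
      ∑ i, (Module.finrank k (Coh.HH X (ClSub.quotMod (D i)) 0) : ℤ) :=
    Finset.sum_le_sum_of_subset_of_nonneg (Finset.subset_univ s) fun i _ _ => Nat.cast_nonneg _
  have h3 : ((s.card : ℕ) : ℤ) = ∑ i ∈ s, (1 : ℤ) := by simp
  rw [h3]
  exact h1.trans h2

end Proper

end Groth.Agent.Sga7.H591.DivDeg
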