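import Groth.Agent.Sga7.H591.DivDeg
import Groth.Agent.S1605
import Groth.Agent.CurvesC.TailMain
import Groth.Agent.CurvesB.NodeSub
import Groth.Agent.Pi1B.FlowSmooth
import Groth.Agent.Divis.CartierStalk
import Mathlib.Topology.JacobsonSpace

/-!
# Enough points on a reduced connected proper curve

`exists_points`: on a proper reduced connected curve `Y` over a field there are finitely many closed points in a given
dense open subscheme with discrete valuation rings as local rings such that `H^1(Y, O(Σ D_y)) = 0` for all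
effective Cartier divisors `D_y` supported at these points.
-/

set_option autoImplicit false
universe u
open CategoryTheory CategoryTheory.Limits AlgebraicGeometry Opposite TopologicalSpace

namespace Groth.Agent.Sga7.H591.EnoughPts

open Groth.Agent.Grpsch.PicGrp Groth.Agent.Sga7.H591.Dcl Groth.Agent.Sga7.H591.DivDeg
open Groth.Agent.Divis.CartierBasic Groth.Agent.Divis.CartierStalk Groth.Agent.CurvesB.SubH1
open Groth.Agent.CohqB.HSeqMod

/-- An effective Cartier divisor supported at a closed point with a discrete valuation ring as local ring restricts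
to an effective Cartier divisor of any closed reduced subscheme of pure dimension one. -/
theorem isEff_comap {Y Z : Scheme.{u}} (i : Z ⟶ Y) [IsClosedImmersion i] [IsReduced Z] [IsLocallyNoetherian Z]
    (hZ : ∀ C ∈ irreducibleComponents (Z : Type u), topologicalKrullDim C = 1)
    (D : Y.IdealSheafData) (hD : BlowUp.IsEffCartierIdeal D)
    (hreg : ∀ y ∈ D.support, IsClosed ({y} : Set Y) ∧ ∃ _ : IsDomain (Y.presheaf.stalk y),
      IsDiscreteValuationRing (Y.presheaf.stalk y)) :
    BlowUp.IsEffCartierIdeal (D.comap i) := by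
  refine isEffCartierIdeal_of_stalkIdeal _ fun z hz => ?_
  rw [Scheme.IdealSheafData.support_comap] at hz
  have hz' : i z ∈ D.support := hz
  obtain ⟨hc, hdom, hdvr⟩ := hreg _ hz'
  obtain ⟨g, hg, hgD⟩ := exists_stalkIdeal_eq_span hD (i z)
  refine ⟨i.stalkMap z g, ?_, ?_⟩
  · have hzc : IsClosed ({z} : Set Z) := by
      have h1 : ({z} : Set Z) = i ⁻¹' {i z} := by
        ext w
        exact ⟨fun h => congrArg i h, fun h => i.isClosedEmbedding.injective h⟩
      rw [h1]
      exact hc.preimage i.continuous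
    have hnf := CurvesB.NodeSub.not_isField_stalk hZ z hzc
    have hsurj : Function.Surjective (i.stalkMap z).hom := i.stalkMap_surjective z
    have hred : _root_.IsReduced (Z.presheaf.stalk z) := inferInstance
    have hker : RingHom.ker (i.stalkMap z).hom = ⊥ := by
      by_contra hne
      apply hnf
      have hrad : (RingHom.ker (i.stalkMap z).hom).IsRadical := by
        intro a ha
        obtain ⟨n, hn⟩ := ha
        rw [RingHom.mem_ker, map_pow] at hn
        exact RingHom.mem_ker.mpr (IsNilpotent.eq_zero ⟨n, hn⟩)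
      obtain ⟨ϖ, hϖ⟩ := IsDiscreteValuationRing.exists_irreducible (Y.presheaf.stalk (i z))
      obtain ⟨n, hn⟩ := IsDiscreteValuationRing.ideal_eq_span_pow_irreducible hne hϖ
      have hmem : ϖ ∈ RingHom.ker (i.stalkMap z).hom :=
        hrad ⟨n, by rw [hn]; exact Ideal.mem_span_singleton_self _⟩
      have hmax : RingHom.ker (i.stalkMap z).hom = IsLocalRing.maximalIdeal (Y.presheaf.stalk (i z)) := by
        apply le_antisymm
        · refine IsLocalRing.le_maximalIdeal ?_
          exact RingHom.ker_ne_top _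
        · rw [hϖ.maximalIdeal_eq, Ideal.span_singleton_le_iff_mem]
          exact hmem
      have e := RingHom.quotientKerEquivOfSurjective hsurj
      have h2 : IsField (Y.presheaf.stalk (i z) ⧸ RingHom.ker (i.stalkMap z).hom) := by
        rw [hmax]
        exact (Ideal.Quotient.maximal_ideal_iff_isField_quotient _).mp inferInstance
      exact MulEquiv.isField h2 e.symm.toMulEquiv
    have hinj : Function.Injective (i.stalkMap z).hom := (RingHom.injective_iff_ker_eq_bot _).mpr hker
    rw [mem_nonZeroDivisors_iff_right]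
    intro b hb
    obtain ⟨a, rfl⟩ := hsurj b
    have h1 : (i.stalkMap z).hom (a * g) = 0 := by
      rw [map_mul]; exact hb
    rw [(mem_nonZeroDivisors_iff_right.mp hg) a (hinj (h1.trans (map_zero _).symm)), map_zero]
  · rw [stalkIdeal_comap, hgD, Ideal.map_span, Set.image_singleton]

/-- A non-closed generic point has infinitely many closed specializations in a dense open. -/
theorem infinite_pts {Y : Scheme.{u}} [IsLocallyNoetherian Y] [JacobsonSpace Y] (W : Y.Opens) (hW : Dense (W : Set Y)) (ξ : Y)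
    (hξ : IsGen ξ) (y₀ : Y) (h : ξ ⤳ y₀) (hne : y₀ ≠ ξ) :
    {y : Y | ξ ⤳ y ∧ y ∈ W ∧ IsClosed ({y} : Set Y)}.Infinite := by
  intro hfin
  set F : Set Y := {y : Y | ξ ⤳ y ∧ y ∈ W ∧ IsClosed ({y} : Set Y)} with hFdef
  have hF : IsClosed F := by
    rw [← Set.biUnion_of_singleton F]
    exact hfin.isClosed_biUnion fun y hy => hy.2.2
  have hξW : ξ ∈ W := Pi1B.FlowSmooth.mem_of_generic ξ hξ _ W.2 (hW _)
  have hξF : ξ ∈ F := by
    by_contra hξF
    have hlc : IsLocallyClosed (closure {ξ} ∩ ((W : Set Y) ∩ Fᶜ)) :=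
      isClosed_closure.isLocallyClosed.inter (W.2.inter hF.isOpen_compl).isLocallyClosed
    obtain ⟨y, hy, hyc⟩ := nonempty_inter_closedPoints (Z := closure {ξ} ∩ ((W : Set Y) ∩ Fᶜ))
      ⟨ξ, subset_closure rfl, hξW, hξF⟩ hlc
    exact hy.2.2 ⟨specializes_iff_mem_closure.2 hy.1, hy.2.1, hyc⟩
  have h1 : y₀ ∈ closure {ξ} := specializes_iff_mem_closure.1 h
  rw [hξF.2.2.closure_eq] at h1
  exact hne h1

/-- `h¹(O_Z) ≤ h¹(O_Y)` for a closed subscheme `Z` of a proper curve `Y`. -/
theorem finrank_H1_le (k : Type u) [Field k] (Y : Scheme.{u}) [Y.Over (Spec (CommRingCat.of k))]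
    [IsProper (Y ↘ (Spec (CommRingCat.of k)))] (hdim : topologicalKrullDim Y ≤ 1) (J : Y.IdealSheafData) :
    letI : J.subscheme.Over (Spec (CommRingCat.of k)) := ⟨J.subschemeι ≫ (Y ↘ (Spec (CommRingCat.of k)))⟩
    Module.finrank k (Coh.HH J.subscheme (Coh.structureModule J.subscheme) 1) ≤
      Module.finrank k (Coh.HH Y (Coh.structureModule Y) 1) := by
  let _ : J.subscheme.Over (Spec (CommRingCat.of k)) := ⟨J.subschemeι ≫ (Y ↘ (Spec (CommRingCat.of k)))⟩
  have hN := CurvesC.CurveCoh.noetherianSpace k Y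
  have hep := VarietyB.DegCartier.epi_toSubscheme J
  have h1 := hmap_one_surjective_of_epi hdim (ClSub.toSubscheme J)
  have h2 := Groth.Agent.S0002.result k Y _ (Fdesc.StructMod.isCoh_structureModule Y) 1
  obtain ⟨e⟩ := VarietyB.HHPush.exists_linearEquiv J.subschemeι k rfl (Coh.structureModule J.subscheme)
    (Fdesc.StructMod.isCoh_structureModule J.subscheme).1 1
  rw [← e.finrank_eq]
  exact LinearMap.finrank_le_finrank_of_surjective (f := hmapₗ k (ClSub.toSubscheme J) 1) h1

theorem finrank_quotMod_top (k : Type u) [Field k] (Y : Scheme.{u}) [Y.Over (Spec (CommRingCat.of k))] :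
    Module.finrank k (Coh.HH Y (ClSub.quotMod (⊤ : Y.IdealSheafData)) 0) = 0 := by
  have e : Coh.HH Y (ClSub.quotMod (⊤ : Y.IdealSheafData)) 0 ≃+ Γ(ClSub.quotMod (⊤ : Y.IdealSheafData), ⊤) :=
    VarietyA.H0Equiv.hZeroEquiv (ClSub.quotMod (⊤ : Y.IdealSheafData))
  have h1 : IsEmpty (⊤ : Y.IdealSheafData).subscheme := ⟨fun z => by
    have h2 : (⊤ : Y.IdealSheafData).subschemeι z ∈ Set.range (⊤ : Y.IdealSheafData).subschemeι := ⟨z, rfl⟩
    rw [Scheme.IdealSheafData.range_subschemeι] at h2
    exact h2⟩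
  have h3 : Subsingleton Γ(ClSub.quotMod (⊤ : Y.IdealSheafData), ⊤) := by
    change Subsingleton Γ((⊤ : Y.IdealSheafData).subscheme, (⊤ : Y.IdealSheafData).subschemeι ⁻¹ᵁ ⊤)
    infer_instance
  have h4 := e.toEquiv.subsingleton
  exact Module.finrank_zero_of_subsingleton

theorem exists_points (k : Type u) [Field k] (Y : Scheme.{u}) [Y.Over (Spec (CommRingCat.of k))]
    [IsProper (Y ↘ (Spec (CommRingCat.of k)))] [IsReduced Y] [ConnectedSpace Y]
    (hdim : topologicalKrullDim Y = 1) (W : Y.Opens) (hW : Dense (W : Set Y))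
    (hreg : ∀ y ∈ W, IsClosed ({y} : Set Y) →
      ∃ _ : IsDomain (Y.presheaf.stalk y), IsDiscreteValuationRing (Y.presheaf.stalk y)) :
    ∃ F : Finset Y, (∀ y ∈ F, y ∈ W ∧ IsClosed ({y} : Set Y)) ∧
      ∀ {ι : Type} [Fintype ι] (y : ι → Y) (_ : Set.range y = F) (D : ι → Y.IdealSheafData)
        (hD : ∀ i, BlowUp.IsEffCartierIdeal (D i)) (_ : ∀ i, ((D i).support : Set Y) = {y i})
        (N : Y.Modules) (hN : PicF.IsInvertible N) (_ : mk N hN = ∏ i, (dcl (D i) (hD i))⁻¹),
        Subsingleton (Coh.HH Y N 1) := by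
  classical
  have hNoeth := CurvesC.CurveCoh.noetherianSpace k Y
  have hJac : JacobsonSpace Y := LocallyOfFiniteType.jacobsonSpace (Y ↘ (Spec (CommRingCat.of k)))
  set M : ℕ := 2 * Module.finrank k (Coh.HH Y (Coh.structureModule Y) 1) + 1 with hM
  have hgen := CurvesB.SubClosed.finite_isGen Y
  have key : ∀ ξ : Y, ∃ S : Finset Y, (∀ y ∈ S, y ∈ W ∧ IsClosed ({y} : Set Y)) ∧
      (IsGen ξ → (∃ y, ξ ⤳ y ∧ y ≠ ξ) → S.card = M ∧ ∀ y ∈ S, ξ ⤳ y) := by
    intro ξ
    by_cases h : IsGen ξ ∧ ∃ y, ξ ⤳ y ∧ y ≠ ξ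
    · obtain ⟨h1, y₀, h2, h3⟩ := h
      obtain ⟨S, hS, hcard⟩ := (infinite_pts W hW ξ h1 y₀ h2 h3).exists_subset_card_eq M
      exact ⟨S, fun y hy => (hS hy).2, fun _ _ => ⟨hcard, fun y hy => (hS hy).1⟩⟩
    · exact ⟨∅, by simp, fun h1 h2 => (h ⟨h1, h2⟩).elim⟩
  choose S hSW hS using key
  refine ⟨hgen.toFinset.biUnion S, fun y hy => ?_, ?_⟩
  · obtain ⟨ξ, -, h⟩ := Finset.mem_biUnion.mp hy
    exact hSW ξ y h
  intro ι _ y hy D hD hsupp N hN hc
  by_contra hcon
  rw [not_subsingleton_iff_nontrivial] at hcon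
  have e1 : Nonempty (ClSub.idealMod (⊤ : Y.IdealSheafData) ≅ Coh.structureModule Y) := by
    have := dcl_top (Y := Y)
    rw [dcl, mk_eq_one_iff] at this
    exact this
  obtain ⟨e1⟩ := e1
  have e2 : CohB1.tensorMod (ClSub.idealMod (⊤ : Y.IdealSheafData)) N ≅ N :=
    Ega2.Tens.mapTIso e1 (Iso.refl _) ≪≫ Ega2.Tens.lunit N
  have hcon' := CurvesB.SubAsm464.nontrivial_of_iso e2.symm 1 hcon
  obtain ⟨J, hJr, hJc, hJ1, hJd⟩ := Groth.Agent.S1605.result k Y hdim N hN ⊤ (by
    rw [Scheme.IdealSheafData.support_top]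
    have : IsEmpty ((⊥ : Closeds Y) : Set Y) := ⟨fun z => z.2⟩
    exact topologicalKrullDim_zero_of_discreteTopology _) hcon'
  let i := J.subschemeι
  let _ : J.subscheme.Over (Spec (CommRingCat.of k)) := ⟨i ≫ (Y ↘ (Spec (CommRingCat.of k)))⟩
  have hP : IsProper (J.subscheme ↘ (Spec (CommRingCat.of k))) :=
    inferInstanceAs (IsProper (i ≫ (Y ↘ (Spec (CommRingCat.of k)))))
  have hNJ := CurvesC.CurveCoh.noetherianSpace k J.subscheme
  have hpure := CurvesC.TailMain.pure_of_connected J.subscheme hJ1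
  have hE : ∀ a, BlowUp.IsEffCartierIdeal ((D a).comap i) := fun a =>
    isEff_comap i hpure (D a) (hD a) (fun z hz => by
      have hz' : z = y a := by
        have : z ∈ ((D a).support : Set Y) := hz
        rw [hsupp a] at this
        exact this
      have h5 : y a ∈ hgen.toFinset.biUnion S := by
        have : y a ∈ Set.range y := ⟨a, rfl⟩
        rw [hy] at this
        exact this
      obtain ⟨ξ, -, h⟩ := Finset.mem_biUnion.mp h5
      obtain ⟨h6, h7⟩ := hSW ξ _ h
      rw [hz']
      exact ⟨h7, hreg _ h6 h7⟩)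
  have hcl : mk ((Scheme.Modules.pullback i).obj N) (Fdesc.LocGen.isInvertible_pullback i hN) =
      ∏ a, (dcl ((D a).comap i) (hE a))⁻¹ := by
    rw [← pull_mk i hN, hc, map_prod]
    refine Finset.prod_congr rfl fun a _ => ?_
    rw [map_inv, pull_dcl i (D a) (hD a) _ (hE a) rfl]
  have h2 := card_le_dg k J.subscheme hJ1.le (fun a => (D a).comap i) hE
    (Finset.univ.filter fun a => y a ∈ J.support) (fun a ha => by
      have h5 : y a ∈ J.support := (Finset.mem_filter.mp ha).2
      obtain ⟨d, hd⟩ := exists_subscheme_apply_eq J h5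
      refine ⟨d, ?_⟩
      change d ∈ ((D a).comap i).support
      rw [Scheme.IdealSheafData.support_comap]
      change i d ∈ (D a).support
      rw [hd]
      have : y a ∈ ((D a).support : Set Y) := by rw [hsupp a]; rfl
      exact this)
  rw [← hcl, dg_mk] at h2
  have h3 := finrank_H1_le k Y hdim.le J
  have h4 : Module.finrank k (Coh.HH Y (ClSub.quotMod ((⊤ : Y.IdealSheafData) ⊔ J)) 0) = 0 := by
    rw [top_sup_eq]
    exact finrank_quotMod_top k Y
  have h5 := CurvesC.CurveCoh.euler_eq k J.subscheme hJ1 (Coh.structureModule J.subscheme)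
  obtain ⟨⟨z', z, hzz, hne⟩, -⟩ := CurvesB.DimOneTop.topologicalKrullDim_eq_one_iff.1 hJ1
  have h6 : i z' ⤳ i z := hzz.map i.continuous
  have h7 : i z ≠ i z' := fun h => hne (i.isClosedEmbedding.injective h)
  have hgen' : IsGen (i z') := by
    rcases (CurvesB.DimOneTop.topologicalKrullDim_eq_one_iff.1 hdim).2 (i z') with h | h
    · exact (h7 (h _ h6)).elim
    · exact h
  obtain ⟨hcard, hsp⟩ := hS (i z') hgen' ⟨i z, h6, h7⟩
  have hsub : S (i z') ⊆ (Finset.univ.filter fun a => y a ∈ J.support).image y := by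
    intro w hw
    have h8 : w ∈ Set.range y := by
      rw [hy]
      exact Finset.mem_biUnion.mpr ⟨i z', hgen.mem_toFinset.mpr hgen', hw⟩
    obtain ⟨a, rfl⟩ := h8
    refine Finset.mem_image.mpr ⟨a, Finset.mem_filter.mpr ⟨Finset.mem_univ _, ?_⟩, rfl⟩
    exact (hsp _ hw).mem_closed J.support.isClosed (subschemeι_mem_support J z')
  have h9 := (Finset.card_le_card hsub).trans Finset.card_image_le
  rw [hcard] at h9
  have h10 : Curv2.deg k J.subscheme ((Scheme.Modules.pullback i).obj N) 1 ≤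
      -2 * Curv2.euler k J.subscheme (Coh.structureModule J.subscheme) + 0 := by
    have := hJd
    rw [h4] at this
    exact_mod_cast this
  rw [h5] at h10
  have h3' : Module.finrank k (Coh.HH J.subscheme (Coh.structureModule J.subscheme) 1) ≤
      Module.finrank k (Coh.HH Y (Coh.structureModule Y) 1) := h3
  have h9' : (M : ℤ) ≤ ((Finset.univ.filter fun a => y a ∈ J.support).card : ℤ) := by exact_mod_cast h9
  rw [hM] at h9'
  push_cast at h9'
  omega

end Groth.Agent.Sga7.H591.EnoughPts
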