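import Groth.Agent.S1591
import Groth.Agent.S1589
import Groth.Agent.S2155
import Groth.Agent.S1363
import Groth.Agent.CurvesB.NodalPoint
import Groth.Agent.CurvesB.NodalEtale
import Groth.Agent.Lefpen.H705.ClosedPoint
import Groth.Agent.Flat2D.GeomFib
import Groth.Agent.CurvesB.NodeSub
import Groth.Agent.Ega43.DedekindOpen
import Groth.Agent.VarietyA.SmoothReg
import Mathlib.AlgebraicGeometry.Geometrically.Integral

/-!
# Geometric fibres of nodal families

* `geometricallyReduced`, `isNodalFamily_of_isPullback`, `smoothRel` (the smooth locus has relative dimension one);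
* over a field: `pure`, `dense_smoothLocus`, `dvr`;
* `connectedSpace_fibre`: connectedness of the geometric special fibre of a proper nodal model of a geometrically
  integral curve.
-/

set_option autoImplicit false
universe u
open CategoryTheory CategoryTheory.Limits AlgebraicGeometry Opposite TopologicalSpace

namespace Groth.Agent.Sga7.H591.GeoFib

open Groth.Agent.CurvesB

variable {X S : Scheme.{u}}

theorem geometricallyReduced (p : X ⟶ S) (hp : Curv2.IsNodalFamily p) : GeometricallyReduced p := by
  have := hp.2.1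
  refine ⟨geometrically_iff_forall_fiberToSpecResidueField.mpr fun s => ?_⟩
  have hft : LocallyOfFiniteType (p.fiberToSpecResidueField s) :=
    MorphismProperty.pullback_snd _ _ inferInstance
  exact (@Groth.Agent.S1589.result (S.residueField s) _ (p.fiber s) ⟨p.fiberToSpecResidueField s⟩
    hft (hp.2.2 s).1 (hp.2.2 s).2).2.geometrically_isReduced

theorem isNodalFamily_of_isPullback {X' S' : Scheme.{u}} (p : X ⟶ S) (hp : Curv2.IsNodalFamily p)
    (p' : X' ⟶ S') (g' : X' ⟶ X) (g : S' ⟶ S) (h : IsPullback g' p' p g) : Curv2.IsNodalFamily p' := by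
  have h1 := hp.1
  have h2 := hp.2.1
  obtain ⟨U, ⟨hU, hmax⟩, hbc⟩ := Groth.Agent.S1591.result p
  have htop : ⊤ ≤ U := hmax ⊤ (NodalEtale.isNodalFamily_precomp_etale p (⊤ : X.Opens).ι hp)
  obtain rfl : U = ⊤ := top_le_iff.mp htop
  obtain ⟨h4, -⟩ := hbc S' g
  let W : (pullback p g).Opens := pullback.fst p g ⁻¹ᵁ ⊤
  have hW : W = ⊤ := rfl
  have hiso : IsIso W.ι := by
    have h : IsIso (⊤ : (pullback p g).Opens).ι := by
      rw [← Scheme.topIso_hom]; infer_instance
    exact h
  have h5 : Curv2.IsNodalFamily ((h.isoPullback.hom ≫ inv W.ι) ≫ (W.ι ≫ pullback.snd p g)) :=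
    NodalEtale.isNodalFamily_precomp_etale _ _ h4
  have h6 : (h.isoPullback.hom ≫ inv W.ι) ≫ (W.ι ≫ pullback.snd p g) = p' := by
    rw [Category.assoc, IsIso.inv_hom_id_assoc, h.isoPullback_hom_snd]
  rwa [h6] at h5

/-- The smooth locus of a nodal family is smooth of relative dimension one. -/
theorem smoothRel (p : X ⟶ S) (hp : Curv2.IsNodalFamily p) :
    haveI := hp.2.1
    SmoothOfRelativeDimension 1 (p.smoothLocus.ι ≫ p) := by
  have h2 := hp.2.1
  have key : ∀ x : X, x ∈ p.smoothLocus → NodalPoint.Sm p x := fun x hx =>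
    NodalPoint.sm_of_mem_smoothLocus p x hx fun n V hV hn =>
      Models.SmoothCase.relDim_eq_one p V.ι n hn (p x) (hp.2.2 (p x)).1 ((V.ι ≫ p).asFiber ⟨x, hV⟩)
  have hloc : IsZariskiLocalAtSource (@SmoothOfRelativeDimension.{u} 1) :=
    HasRingHomProperty.instIsZariskiLocalAtSource (P := @SmoothOfRelativeDimension.{u} 1)
  choose V hV hsm using fun x : p.smoothLocus => key x.1 x.2
  refine IsZariskiLocalAtSource.of_iSup_eq_top (P := @SmoothOfRelativeDimension 1)
    (fun x : p.smoothLocus => p.smoothLocus.ι ⁻¹ᵁ V x) ?_ fun x => ?_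
  · rw [eq_top_iff]
    intro x _
    exact Opens.mem_iSup.mpr ⟨x, hV x⟩
  · have h3 : (p.smoothLocus.ι ⁻¹ᵁ V x).ι ≫ p.smoothLocus.ι ≫ p =
        (p.smoothLocus.ι ∣_ V x) ≫ (V x).ι ≫ p := by
      rw [← Category.assoc, ← Category.assoc, morphismRestrict_ι]
    rw [h3]
    exact IsZariskiLocalAtSource.comp (P := @SmoothOfRelativeDimension 1) (hsm x) _

section Field

variable {κ : Type u} [Field κ] (g : X ⟶ Spec (CommRingCat.of κ)) (hg : Curv2.IsNodalFamily g)

include hg in
theorem isReduced : IsReduced X :=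
  self_of_isIntegral_of_geometrically (P := fun Z => IsReduced Z) (geometricallyReduced g hg).geometrically_isReduced

include hg in
theorem pure : ∀ Z ∈ irreducibleComponents (X : Type u), topologicalKrullDim Z = 1 := by
  have := hg.2.1
  let s : ↥(Spec (CommRingCat.of κ)) := IsLocalRing.closedPoint κ
  exact @FibreBC.dimOne_of_isPullback _ _ κ ((Spec (CommRingCat.of κ)).residueField s) _ _ (g.fiberι s)
    (g.fiberToSpecResidueField s) g ((Spec (CommRingCat.of κ)).fromSpecResidueField s)
    (IsPullback.of_hasPullback _ _) inferInstance (hg.2.2 s).1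

include hg in
theorem dense_smoothLocus : haveI := hg.2.1; Dense (g.smoothLocus : Set X) := by
  have := hg.2.1
  have := geometricallyReduced g hg
  exact VarietyA.GeomRedSch.dense_smoothLocus κ g

include hg in
theorem dvr : haveI := hg.2.1; ∀ y ∈ g.smoothLocus, IsClosed ({y} : Set X) →
    ∃ _ : IsDomain (X.presheaf.stalk y), IsDiscreteValuationRing (X.presheaf.stalk y) := by
  have := hg.2.1
  intro y hy hc
  have hreg : IsRegularLocalRing (X.presheaf.stalk y) :=
    VarietyA.RegSmoothSch.isRegularLocalRing_stalk_of_mem_smoothLocus g y hy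
  have hnf := NodeSub.not_isField_stalk (pure g hg) y hc
  have hdim : ringKrullDim (X.presheaf.stalk y) = 1 := by
    have hsm := smoothRel g hg
    let U := g.smoothLocus
    have hc' : IsClosed ({(⟨y, hy⟩ : U)} : Set U) := by
      have h1 : ({(⟨y, hy⟩ : U)} : Set U) = U.ι ⁻¹' {y} := by
        ext w
        exact ⟨fun h => congrArg U.ι h, fun h => Subtype.ext h⟩
      rw [h1]
      exact hc.preimage U.ι.continuous
    have h2 := Lefpen.H705.ClosedPoint.ringKrullDim_stalk (U.ι ≫ g) 1 ⟨y, hy⟩ hc'
    have e := (asIso (U.ι.stalkMap ⟨y, hy⟩)).commRingCatIsoToRingEquiv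
    rw [← ringKrullDim_eq_of_ringEquiv e] at h2
    exact_mod_cast h2
  obtain ⟨hdom, -⟩ := Ega43.DedekindOpen.isDomain_isPrincipalIdealRing_of_regular_dim_le_one _ hdim.le
  exact ⟨hdom, VarietyA.SmoothReg.isDiscreteValuationRing_of_isRegularLocalRing _ hdim⟩

end Field

/-! ### Connectedness of the special fibre -/

section Connected

theorem connectedSpace_of_card {T : Type*} [TopologicalSpace T] [Nonempty T]
    (h : ENat.card (_root_.ConnectedComponents T) ≤ 1) : ConnectedSpace T := by
  have hs : Subsingleton (_root_.ConnectedComponents T) := (ENat.card_le_one_iff_subsingleton _).mp h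
  have : PreconnectedSpace T := preconnectedSpace_iff_connectedComponent.mpr fun x => by
    ext y
    exact ⟨fun _ => trivial, fun _ => ConnectedComponents.coe_eq_coe'.mp (Subsingleton.elim _ _)⟩
  exact { toNonempty := inferInstance }

theorem card_of_connected {T : Type*} [TopologicalSpace T] [ConnectedSpace T] :
    ENat.card (_root_.ConnectedComponents T) ≤ 1 := by
  refine (ENat.card_le_one_iff_subsingleton _).mpr ⟨fun a b => ?_⟩
  obtain ⟨x, rfl⟩ := _root_.ConnectedComponents.surjective_coe a
  obtain ⟨y, rfl⟩ := _root_.ConnectedComponents.surjective_coe b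
  rw [_root_.ConnectedComponents.coe_eq_coe', PreconnectedSpace.connectedComponent_eq_univ]
  trivial

theorem connectedSpace_fibre (R K : Type u) [CommRing R] [IsDomain R] [IsLocalRing R] [Field K] [Algebra R K]
    [IsFractionRing R K] (p : X ⟶ Spec (CommRingCat.of R)) [IsProper p] [Flat p] [LocallyOfFinitePresentation p]
    {C : Scheme.{u}} (f : C ⟶ Spec (CommRingCat.of K)) (c : C ⟶ X)
    (h : IsPullback c f p (Spec.map (CommRingCat.ofHom (algebraMap R K)))) [GeometricallyIntegral f]
    {κ : Type u} [Field κ] [IsSepClosed κ] {Y : Scheme.{u}} (g : Y ⟶ Spec (CommRingCat.of κ)) (a : Y ⟶ X)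
    (t : Spec (CommRingCat.of κ) ⟶ Spec (CommRingCat.of R)) (hY : IsPullback a g p t)
    (ht : t (IsLocalRing.closedPoint κ) = IsLocalRing.closedPoint R) : ConnectedSpace Y := by
  let Ω := AlgebraicClosure K
  let w : Spec (CommRingCat.of Ω) ⟶ Spec (CommRingCat.of K) := Spec.map (CommRingCat.ofHom (algebraMap K Ω))
  let Z := pullback f w
  have hZ : IsIntegral Z := GeometricallyIntegral.geometrically_isIntegral w _ _ (IsPullback.of_hasPullback f w)
  have h1 := Flat2D.GeomFib.nGeomConnComp_eq p _ _ _ ((IsPullback.of_hasPullback f w).flip.paste_vert h.flip).flip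
  have h2 : MoreMor.nGeomConnComp p ((w ≫ Spec.map (CommRingCat.ofHom (algebraMap R K)))
      (IsLocalRing.closedPoint Ω)) ≤ 1 := by
    rw [← h1]
    exact card_of_connected
  have h3 : MoreMor.nGeomConnComp p (IsLocalRing.closedPoint R) ≤ 1 := by
    by_contra hcon
    rw [not_le] at hcon
    have h4 := Groth.Agent.S1363.result p _ _ hcon
    obtain ⟨V, hV, hVo, hcV⟩ := eventually_nhds_iff.mp h4
    have hV' : V = Set.univ := by
      ext z
      exact ⟨fun _ => trivial, fun _ => (IsLocalRing.specializes_closedPoint z).mem_open hVo hcV⟩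
    exact absurd h2 (not_le.mpr (hV _ (hV' ▸ Set.mem_univ _)))
  have h5 := Flat2D.GeomFib.nGeomConnComp_eq p t a g hY
  rw [ht] at h5
  have hne : Nonempty Y := by
    obtain ⟨z⟩ : Nonempty Z := inferInstance
    let x : X := (pullback.fst f w ≫ c) z
    have hcl : IsClosed (Set.range p) := p.isClosedMap.isClosed_range
    have hx : p x ⤳ IsLocalRing.closedPoint R := IsLocalRing.specializes_closedPoint _
    obtain ⟨x', hx'⟩ : IsLocalRing.closedPoint R ∈ Set.range p := hx.mem_closed hcl ⟨x, rfl⟩
    obtain ⟨q, -, -⟩ := Scheme.Pullback.exists_preimage_pullback (f := p) (g := t) x'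
      (IsLocalRing.closedPoint κ) (hx'.trans ht.symm)
    exact ⟨hY.isoPullback.inv q⟩
  exact connectedSpace_of_card (h5.le.trans h3)

end Connected

end Groth.Agent.Sga7.H591.GeoFib
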