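import Groth.Agent.Sga7.H591.EnoughPts
import Groth.Agent.Sga7.H591.GeoFib
import Groth.Agent.Sga7.H591.SecSm
import Groth.Agent.Sga3.H826.SmSection
import Groth.Agent.Sga7.H732.Hedge
import Mathlib.AlgebraicGeometry.AlgClosed.Basic

/-!
# LIFT: enough sections

`exists_enough`: `p : X ⟶ Spec R` a proper nodal model of a geometrically integral curve, `R''` a henselian discrete
valuation ring over `R` with algebraically closed residue field: there are finitely many `R''`-points `y_i` of the
smooth locus with distinct closed points such that `H^1(X_s, O(Σ y_i)) = 0`.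
-/

set_option autoImplicit false
universe u
open CategoryTheory CategoryTheory.Limits AlgebraicGeometry Opposite TopologicalSpace

namespace Groth.Agent.Sga7.H591.LiftA

open Groth.Agent.Grpsch.PicGrp Groth.Agent.Fga.JacSum Groth.Agent.Sga7.H591.Dcl
open Groth.Agent.Picfga Groth.Agent.Picfga.SecGraph Groth.Agent.Picfga.HilbPull Groth.Agent.Sga7.H591.SecSm
open Groth.Agent.Sga7.H732.Hedge IsLocalRing

section

variable {R B : Type u} [CommRing R] [CommRing B] [HenselianLocalRing B] [Algebra R B]
  {X : Scheme.{u}} (p : X ⟶ Spec (CommRingCat.of R)) (U : X.Opens) [Smooth (U.ι ≫ p)]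
  (r : pt R (ResidueField B) ⟶ pt R B) (hr : r.left = Spec.map (CommRingCat.ofHom (residue B)))

include hr in
/-- Points of the smooth locus over the residue field of a henselian ring lift. -/
theorem exists_lift (x : Pt p (pt R (ResidueField B))) (hx : Set.range x.1 ⊆ U) :
    ∃ y : Pt p (pt R B), Set.range y.1 ⊆ U ∧ y.comp r = x := by
  let x' : Spec (CommRingCat.of (ResidueField B)) ⟶ U := IsOpenImmersion.lift U.ι x.1 (by
    rw [Scheme.Opens.range_ι]; exact hx)
  have hx' : x' ≫ U.ι = x.1 := IsOpenImmersion.lift_fac _ _ _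
  let q : PicF.XT (U.ι ≫ p) (pt R B) ⟶ Spec (CommRingCat.of B) := pullback.snd (U.ι ≫ p) (pt R B).hom
  have hq : Smooth q := MorphismProperty.pullback_snd _ _ inferInstance
  have hcomm : x' ≫ (U.ι ≫ p) = Spec.map (CommRingCat.ofHom (residue B)) ≫ (pt R B).hom := by
    rw [← Category.assoc, hx', x.2, ← hr]
    exact (Over.w r).symm
  let t : Spec (CommRingCat.of (ResidueField B)) ⟶ PicF.XT (U.ι ≫ p) (pt R B) :=
    pullback.lift x' (Spec.map (CommRingCat.ofHom (residue B))) hcomm
  obtain ⟨s, hs, hs'⟩ := Groth.Agent.Sga3.H826.SmSection.exists_lift q t (pullback.lift_snd _ _ _)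
  refine ⟨⟨s ≫ pullback.fst (U.ι ≫ p) (pt R B).hom ≫ U.ι, ?_⟩, ?_, ?_⟩
  · have h1 := pullback.condition (f := U.ι ≫ p) (g := (pt R B).hom)
    rw [Category.assoc, Category.assoc, h1, ← Category.assoc, hs]
    exact Category.id_comp _
  · rintro _ ⟨z, rfl⟩
    exact (pullback.fst (U.ι ≫ p) (pt R B).hom (s z)).2
  · apply Subtype.ext
    change r.left ≫ s ≫ pullback.fst (U.ι ≫ p) (pt R B).hom ≫ U.ι = x.1
    rw [hr, ← Category.assoc, hs', pullback.lift_fst_assoc, hx']

end

/-- Enough sections in the smooth locus of a proper nodal model of a geometrically integral curve. -/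
theorem exists_enough (R K R'' : Type u) [CommRing R] [IsDomain R] [IsLocalRing R] [Field K] [Algebra R K]
    [IsFractionRing R K] [CommRing R''] [HenselianLocalRing R''] [IsAlgClosed (ResidueField R'')]
    [Algebra R R''] [IsLocalHom (algebraMap R R'')]
    (X : Scheme.{u}) (p : X ⟶ Spec (CommRingCat.of R)) [IsProper p] (hp : Curv2.IsNodalFamily p)
    (C : Scheme.{u}) (f : C ⟶ Spec (CommRingCat.of K)) (c : C ⟶ X)
    (h : IsPullback c f p (Spec.map (CommRingCat.ofHom (algebraMap R K)))) (hf : GeometricallyIntegral f)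
    (r : pt R (ResidueField R'') ⟶ pt R R'') (hr : r.left = Spec.map (CommRingCat.ofHom (residue R''))) :
    haveI := hp.2.1
    ∃ (n : ℕ) (y : Fin n → Pt p (pt R R'')), (∀ i, Set.range (y i).1 ⊆ p.smoothLocus) ∧
      (Function.Injective fun i => sec p (pt R R'') (y i).1 (y i).2 (closedPoint R'')) ∧
      ∀ (hE : ∀ i, BlowUp.IsEffCartierIdeal
          (HilbD.secGraph p (pt R (ResidueField R'')) ((y i).comp r).1 ((y i).comp r).2))
        (N : (PicF.XT p (pt R (ResidueField R''))).Modules) (hN : PicF.IsInvertible N),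
        mk N hN = ∏ i, (dcl _ (hE i))⁻¹ → Subsingleton (Coh.HH (PicF.XT p (pt R (ResidueField R''))) N 1) := by
  classical
  have hlfp := hp.2.1
  have hflat := hp.1
  let κ := ResidueField R''
  let T₀ := pt R κ
  let Y := PicF.XT p T₀
  let g : Y ⟶ Spec (CommRingCat.of κ) := PicF.XTproj p T₀
  let a : Y ⟶ X := pullback.fst p T₀.hom
  have hY : IsPullback a g p T₀.hom := IsPullback.of_hasPullback p T₀.hom
  have hg : Curv2.IsNodalFamily g := GeoFib.isNodalFamily_of_isPullback p hp g a T₀.hom hY
  have hglfp := hg.2.1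
  have hgp : IsProper g := MorphismProperty.of_isPullback hY inferInstance
  have ht : T₀.hom (closedPoint κ) = closedPoint R := by
    have h1 : T₀.hom = Spec.map (CommRingCat.ofHom (residue R'')) ≫ (pt R R'').hom := by
      rw [← hr]; exact (Over.w r).symm
    rw [h1, Scheme.Hom.comp_apply]
    have h2 : Spec.map (CommRingCat.ofHom (residue R'')) (closedPoint κ) = closedPoint R'' :=
      IsLocalRing.comap_closedPoint (residue R'')
    rw [h2]
    exact IsLocalRing.comap_closedPoint (algebraMap R R'')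
  have hred : IsReduced Y := GeoFib.isReduced g hg
  have hconn : ConnectedSpace Y := GeoFib.connectedSpace_fibre R K p f c h g a T₀.hom hY ht
  have hdim : topologicalKrullDim Y = 1 := CurvesB.FibreBC.topologicalKrullDim_eq_one (GeoFib.pure g hg)
  let _ : Y.Over (Spec (CommRingCat.of κ)) := ⟨g⟩
  have hPr : IsProper (Y ↘ (Spec (CommRingCat.of κ))) := hgp
  obtain ⟨F, hFW, hF⟩ := EnoughPts.exists_points κ Y hdim g.smoothLocus (GeoFib.dense_smoothLocus g hg)
    (GeoFib.dvr g hg)
  have hsl : g.smoothLocus = a ⁻¹ᵁ p.smoothLocus := Groth.Agent.S2155.result p T₀.hom g a hY (Or.inl hflat)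
  have hsm : SmoothOfRelativeDimension 1 (p.smoothLocus.ι ≫ p) := GeoFib.smoothRel p hp
  have hsm' : Smooth (p.smoothLocus.ι ≫ p) := SmoothOfRelativeDimension.smooth 1 _
  -- the points
  have key : ∀ y₀ : F, ∃ y : Pt p (pt R R''), Set.range y.1 ⊆ p.smoothLocus ∧
      Set.range (sec p T₀ (y.comp r).1 (y.comp r).2) = {y₀.1} := by
    rintro ⟨y₀, hy₀⟩
    obtain ⟨h1, h2⟩ := hFW y₀ hy₀
    let x : Pt p T₀ := ⟨pointOfClosedPoint g y₀ h2 ≫ a, by
      rw [Category.assoc, hY.w, ← Category.assoc, pointOfClosedPoint_comp]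
      exact Category.id_comp _⟩
    obtain ⟨y, hy, hyx⟩ := exists_lift p p.smoothLocus r hr x (by
      rintro _ ⟨z, rfl⟩
      change a (pointOfClosedPoint g y₀ h2 z) ∈ p.smoothLocus
      rw [pointOfClosedPoint_apply]
      rw [hsl] at h1
      exact h1)
    refine ⟨y, hy, ?_⟩
    rw [hyx]
    have h3 : sec p T₀ x.1 x.2 = pointOfClosedPoint g y₀ h2 := by
      apply pullback.hom_ext
      · rw [sec_fst]
      · rw [pullback.lift_snd]
        exact (pointOfClosedPoint_comp g y₀ h2).symm
    rw [h3]
    ext w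
    constructor
    · rintro ⟨z, rfl⟩
      exact pointOfClosedPoint_apply g y₀ h2 z
    · intro hw
      exact ⟨closedPoint κ, (pointOfClosedPoint_apply g y₀ h2 _).trans hw.symm⟩
  choose y hyU hyr using key
  let e := F.equivFin.symm
  refine ⟨F.card, fun i => y (e i), fun i => hyU (e i), ?_, ?_⟩
  · intro i j hij
    have h1 : ∀ i, sec p (pt R R'') (y (e i)).1 (y (e i)).2 (closedPoint R'') =
        PicF.XTmap p r (e i) := by
      intro i
      have h2 : sec p T₀ ((y (e i)).comp r).1 ((y (e i)).comp r).2 (closedPoint κ) = (e i : Y) := by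
        have h3 : sec p T₀ ((y (e i)).comp r).1 ((y (e i)).comp r).2 (closedPoint κ) ∈ ({(e i : Y)} : Set Y) := by
          rw [← hyr (e i)]
          exact ⟨_, rfl⟩
        exact h3
      rw [← h2, ← Scheme.Hom.comp_apply]
      have h4 := sec_XTmap p (y (e i)).1 (y (e i)).2 r
      have h5 : (sec p T₀ ((y (e i)).comp r).1 ((y (e i)).comp r).2) ≫ PicF.XTmap p r =
          r.left ≫ sec p (pt R R'') (y (e i)).1 (y (e i)).2 := h4
      rw [h5, Scheme.Hom.comp_apply, hr]
      congr 1
      exact (IsLocalRing.comap_closedPoint (residue R'')).symm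
    have h2 : IsClosedImmersion (PicF.XTmap p r) := by
      have h3 : IsClosedImmersion r.left := by
        rw [hr]
        exact IsClosedImmersion.spec_of_surjective _ residue_surjective
      exact MorphismProperty.of_isPullback (isPullback_XTmap p r).flip h3
    have h3 : PicF.XTmap p r (e i) = PicF.XTmap p r (e j) := by
      rw [← h1, ← h1]; exact hij
    exact e.injective (Subtype.ext ((PicF.XTmap p r).isClosedEmbedding.injective h3))
  · intro hE N hN hc
    refine hF (fun i => (e i : Y)) ?_ _ hE (fun i => ?_) N hN hc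
    · ext w
      constructor
      · rintro ⟨i, rfl⟩
        exact (e i).2
      · intro hw
        exact ⟨e.symm ⟨w, hw⟩, by simp⟩
    · rw [support_secGraph]
      exact hyr (e i)

end Groth.Agent.Sga7.H591.LiftA
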